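import Mathlib.Topology.Connected.Basic
import Mathlib.Topology.Inseparable
import Mathlib.Topology.Specialization
import Mathlib.RingTheory.Spectrum.Prime.Homeomorph
import Mathlib.RingTheory.Spectrum.Prime.Topology
import Mathlib.RingTheory.Flat.FaithfullyFlat.Algebra
import Mathlib.RingTheory.Ideal.GoingDown
import Mathlib.RingTheory.LocalRing.ResidueField.Fiber

/-!
# Connectedness of a punctured spectrum from connected fibres
-/

set_option autoImplicit false
open TopologicalSpace Topology TensorProduct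

namespace Groth.Agent.Sga2lef.H99.FibConn

section Top

variable {Y T : Type*} [TopologicalSpace Y] [TopologicalSpace T] (f : Y → T) (hf : GeneralizingMap f)
  (y₀ : Y) (t₀ : T) (ht₀ : ∀ t : T, t ⤳ t₀)
  (hfib : ∀ t : T, t ≠ t₀ → IsPreconnected (f ⁻¹' {t}))
  (hy₀ : f y₀ = t₀)

include hf hy₀ ht₀ hfib in
theorem aux (h : (∃ t, t ≠ t₀) ∨ IsPreconnected {y | f y = t₀ ∧ y ≠ y₀}) (u v : Set Y) (hu : IsOpen u)
    (hv : IsOpen v) (hs : {y | y ≠ y₀} ⊆ u ∪ v) (hd : ∀ y, y ≠ y₀ → y ∈ u → y ∈ v → False) (y' : Y)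
    (hy' : y' ≠ y₀) (hfy' : f y' = t₀) (hyu : y' ∈ u) : {y | y ≠ y₀} ⊆ u := by
  have h1 : ∀ t, t ≠ t₀ → f ⁻¹' {t} ⊆ u := by
    intro t ht
    have h2 : f ⁻¹' {t} ⊆ {y | y ≠ y₀} := by
      rintro y hy rfl
      exact ht (hy.symm.trans hy₀)
    obtain ⟨z, hz, hzt⟩ := hf (show t ⤳ f y' by rw [hfy']; exact ht₀ t)
    have hzu : z ∈ u := hz.mem_open hu hyu
    have hzm : z ∈ f ⁻¹' {t} := hzt
    have h3 := isPreconnected_iff_subset_of_disjoint.1 (hfib t ht) u v hu hv (h2.trans hs) (by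
      rw [Set.eq_empty_iff_forall_notMem]
      rintro y ⟨hy1, hy2, hy3⟩
      exact hd y (h2 hy1) hy2 hy3)
    rcases h3 with h3 | h3
    · exact h3
    · exact (hd z (h2 hzm) hzu (h3 hzm)).elim
  intro y hy
  by_cases hfy : f y = t₀
  · rcases h with ⟨t, ht⟩ | h
    · obtain ⟨z, hz, hzt⟩ := hf (show t ⤳ f y by rw [hfy]; exact ht₀ t)
      have hzu : z ∈ u := h1 t ht hzt
      rcases hs hy with h4 | h4
      · exact h4
      · refine (hd z ?_ hzu (hz.mem_open hv h4)).elim
        rintro rfl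
        exact ht (hzt.symm.trans hy₀)
    · have h2 : {y | f y = t₀ ∧ y ≠ y₀} ⊆ {y | y ≠ y₀} := fun y hy => hy.2
      have h3 := isPreconnected_iff_subset_of_disjoint.1 h u v hu hv (h2.trans hs) (by
        rw [Set.eq_empty_iff_forall_notMem]
        rintro y ⟨hy1, hy2, hy3⟩
        exact hd y (h2 hy1) hy2 hy3)
      rcases h3 with h3 | h3
      · exact h3 ⟨hfy, hy⟩
      · exact (hd y' hy' hyu (h3 ⟨hfy', hy'⟩)).elim
  · exact h1 (f y) hfy rfl

include hf hy₀ ht₀ hfib in
/-- The complement of `y₀` is connected if the fibres over the points `≠ t₀` are connected, the punctured fibre over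
`t₀` is nonempty, and either there is a point `≠ t₀` or that punctured fibre is connected. -/
theorem isConnected_compl (hne : {y | f y = t₀ ∧ y ≠ y₀}.Nonempty)
    (h : (∃ t, t ≠ t₀) ∨ IsPreconnected {y | f y = t₀ ∧ y ≠ y₀}) : IsConnected {y | y ≠ y₀} := by
  obtain ⟨y', hy'1, hy'2⟩ := hne
  refine ⟨⟨y', hy'2⟩, ?_⟩
  rw [isPreconnected_iff_subset_of_disjoint]
  intro u v hu hv hs hd
  have hd' : ∀ y, y ≠ y₀ → y ∈ u → y ∈ v → False := by
    intro y h1 h2 h3
    have : y ∈ {y | y ≠ y₀} ∩ (u ∩ v) := ⟨h1, h2, h3⟩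
    rw [hd] at this
    exact this
  rcases hs hy'2 with h1 | h1
  · left
    exact aux f hf y₀ t₀ ht₀ hfib hy₀ h u v hu hv hs hd' y' hy'2 hy'1 h1
  · right
    exact aux f hf y₀ t₀ ht₀ hfib hy₀ h v u hv hu (by rwa [Set.union_comm]) (fun y h1 h2 h3 => hd' y h1 h3 h2)
      y' hy'2 hy'1 h1

end Top

section Ring

open IsLocalRing

/-- **Punctured spectra of flat local algebras with connected fibres.** -/
theorem isConnected_punctured (A B : Type*) [CommRing A] [CommRing B] [IsLocalRing A] [IsLocalRing B]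
    [Algebra A B] [IsLocalHom (algebraMap A B)] [Module.Flat A B]
    (hfib : ∀ t : PrimeSpectrum A, t ≠ closedPoint A → PreconnectedSpace (PrimeSpectrum (t.asIdeal.ResidueField ⊗[A] B)))
    (hne : ∃ q : PrimeSpectrum B, q ≠ closedPoint B ∧ (maximalIdeal A).map (algebraMap A B) ≤ q.asIdeal)
    (h : (∃ t : PrimeSpectrum A, t ≠ closedPoint A) ∨
      IsPreconnected {q : PrimeSpectrum B | q ≠ closedPoint B ∧ (maximalIdeal A).map (algebraMap A B) ≤ q.asIdeal}) :
    IsConnected {q : PrimeSpectrum B | q ≠ closedPoint B} := by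
  have hset : {q : PrimeSpectrum B | q ≠ closedPoint B ∧ (maximalIdeal A).map (algebraMap A B) ≤ q.asIdeal} =
      {q : PrimeSpectrum B | PrimeSpectrum.comap (algebraMap A B) q = closedPoint A ∧ q ≠ closedPoint B} := by
    ext q
    constructor
    · rintro ⟨h1, h2⟩
      refine ⟨?_, h1⟩
      apply PrimeSpectrum.ext
      exact ((maximalIdeal.isMaximal A).eq_of_le (PrimeSpectrum.isPrime _).ne_top (Ideal.map_le_iff_le_comap.1 h2)).symm
    · rintro ⟨h1, h2⟩
      refine ⟨h2, ?_⟩
      rw [Ideal.map_le_iff_le_comap]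
      exact (congrArg PrimeSpectrum.asIdeal h1).ge
  have hgd : GeneralizingMap (PrimeSpectrum.comap (algebraMap A B)) :=
    Algebra.HasGoingDown.iff_generalizingMap_primeSpectrumComap.1 inferInstance
  refine isConnected_compl (PrimeSpectrum.comap (algebraMap A B)) hgd (closedPoint B) (closedPoint A)
    (fun t => IsLocalRing.specializes_closedPoint t) ?_ (IsLocalRing.comap_closedPoint _) ?_ ?_
  · intro t ht
    have h1 := hfib t ht
    rw [isPreconnected_iff_preconnectedSpace]
    let e := PrimeSpectrum.preimageHomeomorphFiber A B t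
    exact e.symm.surjective.denseRange.preconnectedSpace e.symm.continuous
  · obtain ⟨q, hq1, hq2⟩ := hne
    rw [← hset]
    exact ⟨q, hq1, hq2⟩
  · rcases h with h | h
    · exact Or.inl h
    · right
      rw [← hset]
      exact h

end Ring

end Groth.Agent.Sga2lef.H99.FibConn
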