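import Groth.Agent.Pi1C.IdemCrit
import Groth.Agent.Sga4h.KumCov250
import Groth.Agent.Pi1.H395.StrictSec
import Groth.Prelude.Def_EtBase
import Mathlib.RingTheory.OrderOfVanishing.Basic
import Mathlib.Topology.Separation.Connected
import Mathlib.RingTheory.Ideal.MinimalPrime.Noetherian

/-!
# Strictly henselian local rings with `FEt(Spec A) ≃ FEt(punctured Spec A)`

The punctured spectrum is connected and the dimension is at least two.
-/

set_option autoImplicit false

universe u

open CategoryTheory CategoryTheory.Limits AlgebraicGeometry IsLocalRing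

namespace Groth.Agent.Sga2lef.H99.StrictDim

/-! ### connectedness -/

theorem connectedSpace_punctured (A : Type u) [CommRing A] [IsLocalRing A]
    [(FEt.restrict (FEt.puncturedSpec A).ι).Full] [(FEt.restrict (FEt.puncturedSpec A).ι).Faithful] :
    ConnectedSpace (FEt.puncturedSpec A) := by
  let S := Spec (CommRingCat.of A)
  let V : S.Opens := FEt.puncturedSpec A
  let T : FEt.Cat S := MorphismProperty.Over.mk _ (𝟙 S) ⟨inferInstance, inferInstance⟩
  have hiso : IsIso (pullback.snd T.hom V.ι) :=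
    inferInstanceAs (IsIso (pullback.snd (𝟙 S) V.ι))
  have hloc : IsLocalRing Γ(T.left, ⊤) := by
    have : IsLocalRing (CommRingCat.of A) := inferInstanceAs (IsLocalRing A)
    exact ((Scheme.ΓSpecIso (CommRingCat.of A)).commRingCatIsoToRingEquiv.symm).isLocalRing
  have hidem : ∀ e : Γ(T.left, ⊤), e * e = e → e = 0 ∨ e = 1 := by
    intro e he
    have h1 : e * (1 - e) = 0 := by rw [mul_sub, mul_one, he, sub_self]
    rcases IsLocalRing.isUnit_or_isUnit_one_sub_self e with h | h
    · right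
      have := (h.mul_right_eq_zero).1 h1
      exact (sub_eq_zero.1 this).symm
    · left
      exact (h.mul_left_eq_zero).1 h1
  let Z : Scheme.{u} := pullback T.hom V.ι
  have hne : Nonempty Z := by
    by_contra hcon
    have hE : IsEmpty Z := not_nonempty_iff.1 hcon
    have hs : Subsingleton Γ(Z, ⊤) := inferInstance
    have h := Pi1C.IdemCrit.idem_eq_of_faithful V.ι T 0 1 (mul_zero 0) (mul_one 1) (Subsingleton.elim _ _)
    exact zero_ne_one h
  have hpre : PreconnectedSpace Z := by
    rw [preconnectedSpace_iff_clopen]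
    intro U hU
    obtain ⟨e, he, hUe⟩ := Pi1C.IdemCrit.exists_idem_of_isClopen hU
    obtain ⟨e', he', hee⟩ := Pi1C.IdemCrit.exists_idem_of_full V.ι T e he
    rcases hidem e' he' with rfl | rfl
    · left
      rw [← hUe, ← hee, map_zero, Scheme.basicOpen_zero]
      rfl
    · right
      rw [← hUe, ← hee, map_one, Scheme.basicOpen_one]
      rfl
  have hc : ConnectedSpace Z := ⟨hne⟩
  exact ((asIso (pullback.snd T.hom V.ι)).schemeIsoToHomeo.surjective.connectedSpace
    (asIso (pullback.snd T.hom V.ι)).schemeIsoToHomeo.continuous :)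

/-! ### roots in one-dimensional local domains -/

theorem exists_forall_pow_ne {D : Type u} [CommRing D] [IsDomain D] [IsNoetherianRing D]
    [Ring.KrullDimLE 1 D] (K : Type u) [Field K] [Algebra D K] [IsFractionRing D K] (b : D)
    (hb0 : b ≠ 0) (hb : ¬ IsUnit b) : ∃ N : ℕ, ∀ n : ℕ, N < n → ∀ c : K, c ^ n ≠ algebraMap D K b := by
  have hbm : b ∈ nonZeroDivisors D := mem_nonZeroDivisors_of_ne_zero hb0
  obtain ⟨N, hN⟩ := ENat.ne_top_iff_exists.1 (Ring.ord_ne_top hbm)
  have hN0 : N ≠ 0 := by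
    rintro rfl
    have h1 : Ring.ord D b = 0 := by rw [← hN]; rfl
    rw [Ring.ord, Module.length_eq_zero_iff] at h1
    rw [Submodule.Quotient.subsingleton_iff, Ideal.span_singleton_eq_top] at h1
    exact hb h1
  refine ⟨N, fun n hn c hc => ?_⟩
  obtain ⟨x, y, hy, rfl⟩ := IsFractionRing.div_surjective (A := D) c
  have hy0 : y ≠ 0 := nonZeroDivisors.ne_zero hy
  have hyK : algebraMap D K y ≠ 0 := by
    simpa using hy0
  have h1 : x ^ n = b * y ^ n := by
    apply IsFractionRing.injective D K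
    rw [map_pow, map_mul, map_pow, ← hc, div_pow, div_mul_cancel₀]
    exact pow_ne_zero _ hyK
  have hx0 : x ≠ 0 := by
    rintro rfl
    rw [zero_pow (by omega)] at h1
    have := mul_ne_zero hb0 (pow_ne_zero n hy0)
    exact this h1.symm
  have hxm : x ∈ nonZeroDivisors D := mem_nonZeroDivisors_of_ne_zero hx0
  obtain ⟨ox, hox⟩ := ENat.ne_top_iff_exists.1 (Ring.ord_ne_top hxm)
  obtain ⟨oy, hoy⟩ := ENat.ne_top_iff_exists.1 (Ring.ord_ne_top hy)
  have h2 := congrArg (Ring.ord D) h1
  rw [Ring.ord_pow hxm, Ring.ord_mul D (pow_mem hy n), Ring.ord_pow hy, ← hN, ← hox, ← hoy] at h2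
  have h3 : n * ox = N + n * oy := by
    simp only [nsmul_eq_mul] at h2
    exact_mod_cast h2
  have h4 : n ∣ N := (Nat.dvd_add_left (dvd_mul_right n oy)).1 (h3 ▸ dvd_mul_right n ox)
  exact absurd (Nat.le_of_dvd (Nat.pos_of_ne_zero hN0) h4) (by omega)

/-! ### the punctured spectrum in dimension at most one -/

section DimOne

variable (A : Type u) [CommRing A] [IsLocalRing A]

theorem eq_of_le (hd : ¬ (2 : WithBot ℕ∞) ≤ ringKrullDim A) {x z : PrimeSpectrum A}
    (hz : z ≠ closedPoint A) (hxz : x ≤ z) : x = z := by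
  by_contra hne
  apply hd
  have h1 : x < z := lt_of_le_of_ne hxz hne
  have h2 : z < closedPoint A := lt_of_le_of_ne (IsLocalRing.le_maximalIdeal z.isPrime.ne_top) hz
  let p : LTSeries (PrimeSpectrum A) := ⟨2, ![x, z, closedPoint A], by
    intro i
    fin_cases i
    · exact h1
    · exact h2⟩
  exact Order.LTSeries.length_le_krullDim p

theorem subsingleton_punctured [IsNoetherianRing A] (hd : ¬ (2 : WithBot ℕ∞) ≤ ringKrullDim A)
    [PreconnectedSpace (FEt.puncturedSpec A)] : Subsingleton (FEt.puncturedSpec A) := by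
  have hT1 : T1Space (FEt.puncturedSpec A) := by
    refine ⟨fun x => ?_⟩
    have h1 : IsClosed (Subtype.val ⁻¹' (closure {x.1}) : Set (FEt.puncturedSpec A)) :=
      isClosed_closure.preimage continuous_subtype_val
    convert h1 using 1
    ext z
    constructor
    · rintro rfl
      exact subset_closure rfl
    · intro hz
      let x' : PrimeSpectrum A := x.1
      let z' : PrimeSpectrum A := z.1
      have h2 : x' ≤ z' := (PrimeSpectrum.le_iff_mem_closure x' z').2 hz
      exact Subtype.ext (eq_of_le A hd z.2 h2).symm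
  have hfin : Finite (FEt.puncturedSpec A) := by
    have h1 : (minimalPrimes A).Finite := minimalPrimes.finite_of_isNoetherianRing A
    have : Finite (minimalPrimes A) := h1
    refine Finite.of_injective (β := minimalPrimes A)
      (fun x => ⟨(x.1 : PrimeSpectrum A).asIdeal, ⟨⟨(x.1 : PrimeSpectrum A).isPrime, bot_le⟩, ?_⟩⟩) ?_
    · intro q hq hqx
      have := eq_of_le A hd (x := ⟨q, hq.1⟩) (z := x.1) x.2 hqx
      exact (congrArg PrimeSpectrum.asIdeal this).ge
    · intro x y hxy
      exact Subtype.ext (PrimeSpectrum.ext (congrArg Subtype.val hxy))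
  have hdisc : DiscreteTopology (FEt.puncturedSpec A) := inferInstance
  exact PreconnectedSpace.trivial_of_discrete

end DimOne

/-! ### roots on the punctured spectrum -/

section Roots

variable (A : Type u) [CommRing A]

/-- Essential surjectivity extracts `n`-th roots of units on opens of a strictly henselian scheme. -/
theorem exists_root [HenselianLocalRing A] [IsSepClosed (ResidueField A)]
    (V : (Spec (CommRingCat.of A)).Opens) [(FEt.restrict V.ι).EssSurj] (n : ℕ) (hn0 : n ≠ 0)
    (hn : IsUnit (n : Γ(V.toScheme, ⊤))) (f : Γ(V.toScheme, ⊤)) (hf : IsUnit f) (hV : Nonempty V) :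
    ∃ c : Γ(V.toScheme, ⊤), c ^ n = f := by
  let U : Scheme.{u} := V.toScheme
  have het : Etale (Sga4h.KumCov250.π U n f) := Sga4h.KumCov250.etale hn0 hn hf
  have hfin : IsFinite (Sga4h.KumCov250.π U n f) := by
    have h1 : IsFinite (Spec.map (Sga4h.KumCov250.of U n f)) := by
      rw [IsFinite.SpecMap_iff]
      have : Module.Finite Γ(U, ⊤) (AdjoinRoot (Sga4h.KumCov250.P U n f)) :=
        (Polynomial.monic_X_pow_sub_C f hn0).finite_adjoinRoot
      exact RingHom.finite_algebraMap.2 this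
    exact inferInstanceAs (IsFinite (pullback.snd (Spec.map (Sga4h.KumCov250.of U n f)) U.toSpecΓ))
  let T : FEt.Cat U := MorphismProperty.Over.mk _ (Sga4h.KumCov250.π U n f) ⟨hfin, het⟩
  obtain ⟨Y, ⟨e⟩⟩ : ∃ Y : FEt.Cat (Spec (CommRingCat.of A)), Nonempty ((FEt.restrict V.ι).obj Y ≅ T) :=
    ⟨_, ⟨(FEt.restrict V.ι).objObjPreimageIso T⟩⟩
  have hK := Sga4h.KumCov250.isKum (U := U) (n := n) (f := f)
  -- a geometric point
  obtain ⟨x⟩ := hV
  let Ω := AlgebraicClosure (U.residueField x)
  let q : Spec (CommRingCat.of Ω) ⟶ U :=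
    Spec.map (CommRingCat.ofHom (algebraMap (U.residueField x) Ω)) ≫ U.fromSpecResidueField x
  obtain ⟨y, hy⟩ := IsAlgClosed.exists_pow_nat_eq (k := Ω)
    ((Scheme.ΓSpecIso (CommRingCat.of Ω)).hom.hom (q.appTop.hom f)) (Nat.pos_of_ne_zero hn0)
  obtain ⟨k, hk1, hk2⟩ := hK.exists_lift q ((Scheme.ΓSpecIso (CommRingCat.of Ω)).inv.hom y) (by
    rw [← map_pow, hy]
    exact congrArg (fun t => t.hom (q.appTop.hom f)) (Scheme.ΓSpecIso (CommRingCat.of Ω)).hom_inv_id)
  have hY : IsFinite Y.hom := Y.prop.1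
  have hY' : Etale Y.hom := Y.prop.2
  obtain ⟨s, hs, -⟩ := Pi1.H395.StrictSec.exists_section_through Y.hom
    (k ≫ e.inv.left ≫ pullback.fst Y.hom V.ι)
  let σ : U ⟶ Sga4h.KumCov250.T U n f :=
    pullback.lift (V.ι ≫ s) (𝟙 U) (by rw [Category.assoc, hs, Category.id_comp, Category.comp_id]) ≫
      e.hom.left
  have hσ : σ ≫ Sga4h.KumCov250.π U n f = 𝟙 U := by
    have h1 : e.hom.left ≫ T.hom = pullback.snd Y.hom V.ι := Over.w e.hom.hom
    change (_ ≫ e.hom.left) ≫ T.hom = _
    rw [Category.assoc, h1]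
    exact pullback.lift_snd _ _ _
  refine ⟨σ.appTop.hom (Sga4h.KumCov250.x U n f), ?_⟩
  rw [← map_pow, hK.pow_eq]
  have h2 := congrArg (fun t => Scheme.Hom.appTop t) hσ
  exact congrArg (fun t => t.hom f) h2

end Roots

/-! ### dimension at least two -/

theorem two_le_dim (A : Type u) [CommRing A] [IsNoetherianRing A] [HenselianLocalRing A]
    [IsSepClosed (ResidueField A)] [(FEt.restrict (FEt.puncturedSpec A).ι).EssSurj]
    (hc : ConnectedSpace (FEt.puncturedSpec A)) : (2 : WithBot ℕ∞) ≤ ringKrullDim A := by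
  by_contra hd
  have hsub := subsingleton_punctured A hd
  obtain ⟨p⟩ := hc.toNonempty
  let p' : PrimeSpectrum A := p.1
  have hp' : p' ≠ closedPoint A := p.2
  have hlt : p'.asIdeal < maximalIdeal A := by
    refine lt_of_le_of_ne (IsLocalRing.le_maximalIdeal p'.isPrime.ne_top) ?_
    intro h
    exact hp' (PrimeSpectrum.ext h)
  obtain ⟨b, hbm, hbp⟩ := SetLike.exists_of_lt hlt
  let D := A ⧸ p'.asIdeal
  let K := FractionRing D
  have hDdim : Ring.KrullDimLE 1 D := by
    rw [Ring.krullDimLE_iff]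
    refine (ringKrullDim_quotient_le p'.asIdeal).trans ?_
    have h1 : ringKrullDim A < ((1 : ℕ) : WithBot ℕ∞) + 1 := by
      rw [not_le] at hd
      exact hd
    exact ENat.WithBot.lt_add_one_iff.1 h1
  let bD : D := Ideal.Quotient.mk p'.asIdeal b
  have hb0 : bD ≠ 0 := by
    rw [Ne, Ideal.Quotient.eq_zero_iff_mem]
    exact hbp
  have hbu : ¬ IsUnit bD := by
    intro h
    have h1 := h.map (Ideal.Quotient.factor hlt.le)
    rw [Ideal.Quotient.factor_mk, Ideal.Quotient.eq_zero_iff_mem.2 hbm] at h1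
    exact not_isUnit_zero h1
  obtain ⟨N, hN⟩ := exists_forall_pow_ne K bD hb0 hbu
  obtain ⟨n, hn, hnp⟩ := Nat.exists_infinite_primes (max N (ringChar (ResidueField A)) + 1)
  have hnN : N < n := by omega
  have hnu : IsUnit (n : A) := by
    rw [← IsLocalRing.residue_ne_zero_iff_isUnit, map_natCast]
    intro h
    have h1 := ringChar.dvd h
    rcases (Nat.dvd_prime hnp).1 h1 with h2 | h2
    · exact CharP.ringChar_ne_one h2
    · omega
  let V := FEt.puncturedSpec A
  let f : Γ(V.toScheme, ⊤) := V.ι.appTop.hom ((Scheme.ΓSpecIso (CommRingCat.of A)).inv.hom b)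
  have hf : IsUnit f := by
    apply V.toScheme.toRingedSpace.isUnit_of_isUnit_germ ⊤ f
    intro x hx
    have h1 : x ∈ V.toScheme.basicOpen f := by
      change x ∈ V.toScheme.basicOpen (V.ι.appTop _)
      rw [← Scheme.preimage_basicOpen_top, basicOpen_eq_of_affine]
      have h2 : x = p := Subsingleton.elim _ _
      rw [h2]
      exact hbp
    exact (Scheme.mem_basicOpen_top _ _ _).1 h1
  obtain ⟨c, hcf⟩ := exists_root A V n hnp.ne_zero (by
    have := hnu.map (V.ι.appTop.hom.comp (Scheme.ΓSpecIso (CommRingCat.of A)).inv.hom)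
    rwa [map_natCast] at this) f hf ⟨p⟩
  let φ : A →+* K := (algebraMap D K).comp (Ideal.Quotient.mk p'.asIdeal)
  obtain ⟨q, hq⟩ : ∃ q : Spec (CommRingCat.of K) ⟶ V.toScheme, q ≫ V.ι = Spec.map (CommRingCat.ofHom φ) := by
    refine ⟨IsOpenImmersion.lift V.ι (Spec.map (CommRingCat.ofHom φ)) ?_, IsOpenImmersion.lift_fac _ _ _⟩
    rw [Scheme.Opens.range_ι]
    rintro _ ⟨z, rfl⟩
    intro h
    let z' : PrimeSpectrum K := z
    have h1 : (PrimeSpectrum.comap φ z').asIdeal = maximalIdeal A :=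
      congrArg PrimeSpectrum.asIdeal (h : PrimeSpectrum.comap φ z' = closedPoint A)
    have h2 : b ∈ (PrimeSpectrum.comap φ z').asIdeal := h1 ▸ hbm
    have h3 : φ b ∈ z'.asIdeal := h2
    have h4 : φ b ≠ 0 := by
      change algebraMap D K bD ≠ 0
      simpa using hb0
    exact z'.isPrime.ne_top (Ideal.eq_top_of_isUnit_mem _ h3 h4.isUnit)
  apply hN n hnN ((Scheme.ΓSpecIso (CommRingCat.of K)).hom.hom (q.appTop.hom c))
  rw [← map_pow, ← map_pow, hcf]
  have h1 : V.ι.appTop ≫ q.appTop = (Spec.map (CommRingCat.ofHom φ)).appTop := by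
    rw [← Scheme.Hom.comp_appTop, hq]
  have h2 := congrArg (fun t => (Scheme.ΓSpecIso (CommRingCat.of A)).inv ≫ t ≫
    (Scheme.ΓSpecIso (CommRingCat.of K)).hom) h1
  have h3 : (Scheme.ΓSpecIso (CommRingCat.of A)).inv ≫ (Spec.map (CommRingCat.ofHom φ)).appTop ≫
    (Scheme.ΓSpecIso (CommRingCat.of K)).hom = CommRingCat.ofHom φ := by
    rw [Scheme.ΓSpecIso_naturality, Iso.inv_hom_id_assoc]
  exact congrArg (fun t => t.hom b) (h2.trans h3)

theorem main (A : Type u) [CommRing A] [IsNoetherianRing A] [IsLocalRing A]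
    (hA : EtCoh.IsStrictlyHenselianLocalRing A)
    (h : (FEt.restrict (FEt.puncturedSpec A).ι).IsEquivalence) :
    ConnectedSpace (FEt.puncturedSpec A) ∧ (2 : WithBot ℕ∞) ≤ ringKrullDim A := by
  obtain ⟨h1, h2⟩ := hA
  have hc := connectedSpace_punctured A
  exact ⟨hc, two_le_dim A hc⟩

end Groth.Agent.Sga2lef.H99.StrictDim
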