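import Mathlib.Topology.LocallyConstant.Basic
import Mathlib.Topology.Sober
import Mathlib.Topology.NoetherianSpace

/-!
# Extension of locally constant functions from an open subset of a locally Noetherian sober space

If for every point `y` off the open `O` the set of proper generizations of `y` is connected and nonempty, then every
locally constant function on `O` extends uniquely to the whole space.
-/

set_option autoImplicit false
open TopologicalSpace Topology

namespace Groth.Agent.Sga2lef.H99.TopExt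

variable {V : Type*} [TopologicalSpace V] [QuasiSober V] [T0Space V]

/-- Every point of a closed set is a specialization of a maximal point of that set. -/
theorem exists_maximal (T : Set V) (hT : IsClosed T) (t : V) (ht : t ∈ T) :
    ∃ y ∈ T, y ⤳ t ∧ ∀ z, z ⤳ y → z ≠ y → z ∉ T := by
  obtain ⟨Z, hZ, htZ⟩ := exists_mem_irreducibleComponents_subset_of_isIrreducible
    ((Subtype.val : T → V) ⁻¹' {t}) (by
      have : ((Subtype.val : T → V) ⁻¹' {t}) = {⟨t, ht⟩} := by
        ext x
        simp [Subtype.ext_iff]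
      rw [this]
      exact isIrreducible_singleton)
  have hirr : IsIrreducible (Subtype.val '' Z : Set V) := hZ.1.image _ continuous_subtype_val.continuousOn
  have hcl : IsClosed (Subtype.val '' Z : Set V) :=
    hT.isClosedEmbedding_subtypeVal.isClosedMap _ (isClosed_of_mem_irreducibleComponents Z hZ)
  obtain ⟨y, hy⟩ := QuasiSober.sober hirr hcl
  have hyZ : y ∈ (Subtype.val '' Z : Set V) := hy.mem
  obtain ⟨⟨y', hy'T⟩, hy'Z, hy'⟩ := hyZ
  have hyy : y' = y := hy'
  subst hyy
  have htZ' : t ∈ (Subtype.val '' Z : Set V) := ⟨⟨t, ht⟩, htZ rfl, rfl⟩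
  refine ⟨y', hy'T, ?_, ?_⟩
  · rw [specializes_iff_mem_closure, hy.def]
    exact htZ'
  · intro z hz hne hzT
    apply hne
    have h1 : IsIrreducible (closure ({⟨z, hzT⟩} : Set T)) := isIrreducible_singleton.closure
    have h2 : Z ⊆ closure ({⟨z, hzT⟩} : Set T) := by
      intro w hw
      have h3 : y' ⤳ w.1 := by
        rw [specializes_iff_mem_closure, hy.def]
        exact ⟨w, hw, rfl⟩
      have h4 : z ⤳ w.1 := hz.trans h3
      have h5 : (⟨z, hzT⟩ : T) ⤳ w := by
        rw [subtype_specializes_iff]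
        exact h4
      exact h5.mem_closure
    have h6 := hZ.2 h1 h2
    have h7 : (⟨z, hzT⟩ : T) ∈ Z := h6 (subset_closure rfl)
    have h8 : y' ⤳ z := by
      rw [specializes_iff_mem_closure, hy.def]
      exact ⟨⟨z, hzT⟩, h7, rfl⟩
    exact (hz.antisymm h8).eq

/-- Density. -/
theorem inter_nonempty (O : Set V) (hP : ∀ y, y ∉ O → {z | z ⤳ y ∧ z ≠ y}.Nonempty) (W : Set V) (hW : IsOpen W)
    (hne : W.Nonempty) : (W ∩ O).Nonempty := by
  obtain ⟨w, hw⟩ := hne
  obtain ⟨y, -, hyw, hy⟩ := exists_maximal (Set.univ : Set V) isClosed_univ w trivial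
  refine ⟨y, hyw.mem_open hW hw, ?_⟩
  by_contra hyO
  obtain ⟨z, hz1, hz2⟩ := hP y hyO
  exact hy z hz1 hz2 trivial

omit [T0Space V] in
/-- In a Noetherian open neighbourhood, a point of the closure of an open set `D` is a specialization of a point
of `D`. -/
theorem exists_specializes_of_mem_closure (D N : Set V) (hD : IsOpen D) (hDN : D ⊆ N)
    (hN : NoetherianSpace N) (y : V) (hy : y ∈ closure D) : ∃ η ∈ D, η ⤳ y := by
  have hND : NoetherianSpace D := NoetherianSpace.of_subset hDN
  obtain ⟨S, hS, -, hS', hSD⟩ := NoetherianSpace.exists_finite_set_isClosed_irreducible (α := D) isClosed_univ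
  have hcov : D ⊆ ⋃ t ∈ S, (Subtype.val '' (t : Set D) : Set V) := by
    intro d hd
    have h1 : (⟨d, hd⟩ : D) ∈ (Set.univ : Set D) := trivial
    rw [hSD] at h1
    obtain ⟨t, ht, hdt⟩ := h1
    exact Set.mem_iUnion₂.2 ⟨t, ht, ⟨d, hd⟩, hdt, rfl⟩
  have h3 := closure_mono hcov hy
  rw [hS.closure_biUnion] at h3
  obtain ⟨t, ht, hyt⟩ := Set.mem_iUnion₂.1 h3
  have hirr : IsIrreducible (Subtype.val '' (t : Set D) : Set V) :=
    (hS' t ht).image _ continuous_subtype_val.continuousOn
  obtain ⟨η, hη⟩ := QuasiSober.sober hirr.closure isClosed_closure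
  have hsp : ∀ x ∈ closure (Subtype.val '' (t : Set D) : Set V), η ⤳ x := fun x hx => by
    rw [specializes_iff_mem_closure, hη.def]
    exact hx
  obtain ⟨d, hd⟩ := hirr.nonempty
  have hdD : d ∈ D := by
    obtain ⟨d', -, rfl⟩ := hd
    exact d'.2
  exact ⟨η, (hsp d (subset_closure hd)).mem_open hD hdD, hsp y hyt⟩

/-- **Extension of locally constant functions**. -/
theorem bijective_comap {W A : Type*} [TopologicalSpace W] (p : C(W, V)) (hp : IsOpenEmbedding p)
    (hN : ∀ v : V, ∃ N : Set V, IsOpen N ∧ v ∈ N ∧ NoetherianSpace N)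
    (hP : ∀ y, y ∉ Set.range p → IsConnected {z | z ⤳ y ∧ z ≠ y}) :
    Function.Bijective (LocallyConstant.comap (Z := A) p) := by
  have hdense : ∀ U : Set V, IsOpen U → U.Nonempty → (U ∩ Set.range p).Nonempty :=
    inter_nonempty (Set.range p) fun y hy => (hP y hy).nonempty
  constructor
  · intro f g hfg
    ext v
    by_contra hne
    have hopen : IsOpen (f ⁻¹' {f v} ∩ g ⁻¹' {g v}) := (f.isLocallyConstant {f v}).inter (g.isLocallyConstant {g v})
    obtain ⟨_, hw, ⟨w, rfl⟩⟩ := hdense _ hopen ⟨v, rfl, rfl⟩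
    have h1 : f (p w) = g (p w) := congrArg (fun k : LocallyConstant W A => k w) hfg
    have h2 : f (p w) = f v := hw.1
    have h3 : g (p w) = g v := hw.2
    exact hne (h2.symm.trans (h1.trans h3))
  · intro φ
    let S : Set V := {v | ∃ U : Set V, IsOpen U ∧ v ∈ U ∧ ∃ a : A, ∀ w, p w ∈ U → φ w = a}
    have hS : S = Set.univ := by
      by_contra hne
      have hSo : IsOpen S := by
        rw [isOpen_iff_forall_mem_open]
        rintro v ⟨U, hU, hvU, a, ha⟩
        exact ⟨U, fun v' hv' => ⟨U, hU, hv', a, ha⟩, hU, hvU⟩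
      obtain ⟨t, ht⟩ : (Sᶜ).Nonempty := Set.nonempty_compl.2 hne
      obtain ⟨y, hy, -, hmax⟩ := exists_maximal Sᶜ hSo.isClosed_compl t ht
      have hyR : y ∉ Set.range p := by
        rintro ⟨w, rfl⟩
        apply hy
        refine ⟨p '' (φ ⁻¹' {φ w}), hp.isOpenMap _ (φ.isLocallyConstant _), ⟨w, rfl, rfl⟩, φ w, ?_⟩
        rintro w' ⟨w'', hw'', h⟩
        have : w'' = w' := hp.injective h
        subst this
        exact hw''
      have hPS : ∀ z, z ⤳ y → z ≠ y → z ∈ S := fun z h1 h2 => by
        by_contra h3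
        exact hmax z h1 h2 h3
      obtain ⟨z₀, hz₀⟩ := (hP y hyR).nonempty
      have hA : Nonempty A := by
        obtain ⟨-, -, -, a, -⟩ := hPS z₀ hz₀.1 hz₀.2
        exact ⟨a⟩
      have hex : ∀ v : V, v ∈ S → ∃ U : Set V, IsOpen U ∧ v ∈ U ∧ ∃ a : A, ∀ w, p w ∈ U → φ w = a :=
        fun v hv => hv
      choose! U hUo hU a ha using hex
      have huniq : ∀ v ∈ S, ∀ v' ∈ S, v' ∈ U v → a v' = a v := by
        intro v hv v' hv' hvv'
        obtain ⟨_, hw, ⟨w, rfl⟩⟩ := hdense _ ((hUo v hv).inter (hUo v' hv')) ⟨v', hvv', hU v' hv'⟩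
        rw [← ha v hv w hw.1, ← ha v' hv' w hw.2]
      -- `a` is constant on the punctured generizations
      have hconst : ∀ z, z ⤳ y → z ≠ y → a z = a z₀ := by
        intro z h1 h2
        let _ : TopologicalSpace A := ⊥
        have : DiscreteTopology A := ⟨rfl⟩
        have hcont : ContinuousOn a {z | z ⤳ y ∧ z ≠ y} := by
          intro z hz
          have hzS := hPS z hz.1 hz.2
          have : a =ᶠ[nhdsWithin z {z | z ⤳ y ∧ z ≠ y}] fun _ => a z := by
            have h3 : U z ∩ {z | z ⤳ y ∧ z ≠ y} ∈ nhdsWithin z {z | z ⤳ y ∧ z ≠ y} := by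
              rw [Set.inter_comm]
              exact inter_mem_nhdsWithin _ ((hUo z hzS).mem_nhds (hU z hzS))
            filter_upwards [h3] with z' hz'
            exact huniq z hzS z' (hPS z' hz'.2.1 hz'.2.2) hz'.1
          exact continuousWithinAt_const.congr_of_eventuallyEq this rfl
        exact (hP y hyR).isPreconnected.constant hcont ⟨h1, h2⟩ hz₀
      have hval : ∀ w, p w ⤳ y → φ w = a z₀ := by
        intro w hw
        have hne : p w ≠ y := fun h => hyR ⟨w, h⟩
        rw [← hconst (p w) hw hne]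
        exact ha (p w) (hPS _ hw hne) w (hU _ (hPS _ hw hne))
      obtain ⟨N, hNo, hyN, hNN⟩ := hN y
      let D : Set V := N ∩ p '' (φ ⁻¹' {a z₀}ᶜ)
      have hDo : IsOpen D := hNo.inter (hp.isOpenMap _ (φ.isLocallyConstant _))
      have hyD : y ∉ closure D := by
        intro h
        obtain ⟨η, ⟨-, w, hw, rfl⟩, hη⟩ := exists_specializes_of_mem_closure D N hDo Set.inter_subset_left hNN y h
        exact hw (hval w hη)
      apply hy
      refine ⟨N ∩ (closure D)ᶜ, hNo.inter isClosed_closure.isOpen_compl, ⟨hyN, hyD⟩, a z₀, ?_⟩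
      rintro w ⟨hw1, hw2⟩
      by_contra hne
      exact hw2 (subset_closure ⟨hw1, w, hne, rfl⟩)
    have hS' : ∀ v : V, ∃ U : Set V, IsOpen U ∧ v ∈ U ∧ ∃ a : A, ∀ w, p w ∈ U → φ w = a := fun v => by
      have : v ∈ S := by rw [hS]; trivial
      exact this
    choose U hUo hU a ha using hS'
    have hlc : IsLocallyConstant a := by
      rw [IsLocallyConstant.iff_exists_open]
      intro v
      refine ⟨U v, hUo v, hU v, fun v' hv' => ?_⟩
      obtain ⟨_, hw, ⟨w, rfl⟩⟩ := hdense _ ((hUo v).inter (hUo v')) ⟨v', hv', hU v'⟩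
      rw [← ha v w hw.1, ← ha v' w hw.2]
    refine ⟨⟨a, hlc⟩, ?_⟩
    ext w
    exact (ha (p w) w (hU (p w))).symm

end Groth.Agent.Sga2lef.H99.TopExt
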